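import Mathlib

/-!
# Direct powers of a simple group are characteristically simple
-/

set_option autoImplicit false
set_option linter.style.haveILetI false

namespace Cfsg.Agent.Lib.CharSimple.Backward

variable {S : Type*} [Group S] [IsSimpleGroup S] {n : ℕ}

/-- The shear automorphism in the abelian case. -/
def shear (hc : ∀ a b : S, a * b = b * a) (i : Fin n) (k : Fin n → ℤ) :
    (Fin n → S) ≃* (Fin n → S) where
  toFun x j := if j = i then x i else x j * (x i) ^ (-(k j))
  invFun x j := if j = i then x i else x j * (x i) ^ (k j)
  left_inv x := by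
    funext j
    by_cases h : j = i
    · simp [h]
    · simp [h, mul_assoc]
  right_inv x := by
    funext j
    by_cases h : j = i
    · simp [h]
    · simp [h, mul_assoc]
  map_mul' x y := by
    funext j
    by_cases h : j = i
    · simp [h]
    · letI : CommGroup S := { (inferInstance : Group S) with mul_comm := hc }
      simp only [Pi.mul_apply, if_neg h]
      rw [mul_zpow]
      simp only [mul_assoc, mul_left_comm]

theorem char_pi (H : Subgroup (Fin n → S)) (hchar : H.Characteristic) : H = ⊥ ∨ H = ⊤ := by
  classical
  by_cases hb : H = ⊥
  · exact Or.inl hb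
  right
  have hfix : ∀ (φ : (Fin n → S) ≃* (Fin n → S)) x, x ∈ H → φ x ∈ H := by
    intro φ x hx
    have := hchar.fixed φ.symm
    rw [← this]
    simpa using hx
  have hnorm : H.Normal := inferInstance
  obtain ⟨h, hh, hne⟩ := (Subgroup.bot_or_exists_ne_one H).resolve_left hb
  obtain ⟨i, hi⟩ : ∃ i, h i ≠ 1 := by
    by_contra hall
    push Not at hall
    exact hne (funext hall)
  -- a single coordinate element
  have hT : ∃ t : S, t ≠ 1 ∧ Pi.mulSingle i t ∈ H := by
    by_cases hc : ∀ a b : S, a * b = b * a
    · -- abelian case
      have hz : (Subgroup.zpowers (h i)) = ⊤ := by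
        have hnz : (Subgroup.zpowers (h i)).Normal :=
          ⟨fun x hx g => by
            have : g * x * g⁻¹ = x := by rw [hc g x]; simp
            rwa [this]⟩
        refine hnz.eq_bot_or_eq_top.resolve_left ?_
        intro hb'
        exact hi (Subgroup.zpowers_eq_bot.mp hb')
      have hk : ∀ j, ∃ k : ℤ, h i ^ k = h j := by
        intro j
        have : h j ∈ Subgroup.zpowers (h i) := by rw [hz]; trivial
        exact Subgroup.mem_zpowers_iff.mp this
      choose k hk using hk
      refine ⟨h i, hi, ?_⟩
      have := hfix (shear hc i k) h hh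
      convert this using 1
      funext j
      by_cases hj : j = i
      · subst hj
        simp [shear]
      · simp only [shear, Pi.mulSingle_eq_of_ne hj]
        change (1 : S) = if j = i then h i else h j * h i ^ (-k j)
        rw [if_neg hj, zpow_neg, hk j]
        simp
    · -- nonabelian case
      have hcen : Subgroup.center S = ⊥ := by
        refine (Subgroup.center S).normal_of_characteristic.eq_bot_or_eq_top.resolve_right ?_
        intro htop
        apply hc
        intro a b
        have : a ∈ Subgroup.center S := by rw [htop]; trivial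
        exact (Subgroup.mem_center_iff.mp this b).symm
      have hnc : h i ∉ Subgroup.center S := by
        rw [hcen]
        simpa using hi
      rw [Subgroup.mem_center_iff] at hnc
      push Not at hnc
      obtain ⟨s, hs⟩ := hnc
      refine ⟨h i * s * (h i)⁻¹ * s⁻¹, ?_, ?_⟩
      · intro h1
        apply hs
        have : h i * s = s * h i := by
          have h2 : h i * s * (h i)⁻¹ = s := by
            rw [mul_inv_eq_one] at h1
            exact h1
          rw [mul_inv_eq_iff_eq_mul] at h2
          exact h2
        exact this.symm
      · have hmem : h * (Pi.mulSingle i s * h⁻¹ * (Pi.mulSingle i s)⁻¹) ∈ H :=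
          H.mul_mem hh (hnorm.conj_mem _ (H.inv_mem hh) _)
        convert hmem using 1
        funext j
        by_cases hj : j = i
        · subst hj
          simp [mul_assoc]
        · simp [Pi.mulSingle_eq_of_ne hj]
  obtain ⟨t₀, ht₀, hsingle₀⟩ := hT
  -- all elements in the i-th coordinate
  let T : Subgroup S := H.comap (MonoidHom.mulSingle (fun _ : Fin n => S) i)
  have hTn : T.Normal := by
    refine ⟨fun x hx g => ?_⟩
    change Pi.mulSingle i (g * x * g⁻¹) ∈ H
    have hx' : Pi.mulSingle i x ∈ H := hx
    have := hnorm.conj_mem _ hx' (Pi.mulSingle i g)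
    convert this using 1
    simp [Pi.mulSingle_mul, Pi.mulSingle_inv]
  have hTtop : T = ⊤ := by
    refine hTn.eq_bot_or_eq_top.resolve_left ?_
    intro hb'
    have : t₀ ∈ T := hsingle₀
    rw [hb', Subgroup.mem_bot] at this
    exact ht₀ this
  have hi' : ∀ t, Pi.mulSingle i t ∈ H := by
    intro t
    have : t ∈ T := by rw [hTtop]; trivial
    exact this
  -- other coordinates
  have hall : ∀ j t, Pi.mulSingle j t ∈ H := by
    intro j t
    have := hfix (MulEquiv.arrowCongr (Equiv.swap i j) (MulEquiv.refl S)) _ (hi' t)
    convert this using 1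
    funext l
    simp only [MulEquiv.arrowCongr_apply, Function.comp_apply, MulEquiv.refl_apply]
    by_cases hl : l = j
    · subst hl
      simp
    · by_cases hl' : l = i
      · subst hl'
        rw [Pi.mulSingle_eq_of_ne hl]
        simp only [Equiv.symm_swap, Equiv.swap_apply_left]
        rw [Pi.mulSingle_eq_of_ne (Ne.symm hl)]
      · rw [Pi.mulSingle_eq_of_ne hl]
        simp only [Equiv.symm_swap]
        rw [Equiv.swap_apply_of_ne_of_ne hl' hl, Pi.mulSingle_eq_of_ne hl']
  rw [eq_top_iff]
  intro x _
  exact Subgroup.pi_mem_of_mulSingle_mem x fun j => hall j _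

end Cfsg.Agent.Lib.CharSimple.Backward
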